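import Cfsg.Agent.H11.SimDSpec

/-! Tower SIM, chapter D: job `SL` (the property (*) in the linear case). -/

set_option autoImplicit false

namespace H69.SimDSL

open Subgroup Cfsg H98 Matrix H0.Sim H11.SimD

theorem jobD_SL : H11.SimD.JobSL := by
  intro lt n F _ _ q A W₁ W₂ _ h12 e1 e2 hs X hX
  obtain ⟨l1, l2, -⟩ := lt n F q
  refine or_iff_not_imp_left.2 fun hn w hw => ?_
  obtain ⟨x, hx, hx2⟩ := SetLike.not_le_iff_exists.1 hn
  have sub : ∀ m ∈ A, IsNilpotent (m - 1) → (m - 1) *ᵥ x ∈ X := fun m hm hu => by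
    rw [sub_mulVec, one_mulVec]
    exact X.sub_mem (hX m hm hu x hx) hx
  rw [← e2, mem_KS] at hx2
  push Not at hx2
  obtain ⟨m, hm, hu, hv⟩ := hx2
  by_cases hsp : (m - 1) *ᵥ x ∈ Submodule.span F {w}
  · obtain ⟨a, ha⟩ := Submodule.mem_span_singleton.1 hsp
    have a0 : a ≠ 0 := by
      rintro rfl
      exact hv (by rw [← ha, zero_smul])
    exact (X.smul_mem_iff a0).1 (ha ▸ sub m hm hu)
  obtain ⟨φ, p1, p2⟩ := l2 _ _ hsp
  have p3 := p2 w (Submodule.mem_span_singleton_self w)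
  obtain ⟨t, ht, e⟩ := l1 w φ p3
  have sb : ∀ W : Submodule F (Fin n → F), w ∈ W → Sb t W := fun W h v hv => by
    rw [e]; exact W.add_mem hv (W.smul_mem _ h)
  have h1 := sub _ (hs t ht (sb _ hw) (sb _ (h12 hw)) m hm) (nil_conj t hu)
  have h2 : ((t⁻¹ : GL (Fin n) F) : Mt n F) *ᵥ x = x - φ x • w := by
    rw [← inv_mulVec t (x - φ x • w), e, map_sub, map_smul, p3, smul_zero, sub_zero, sub_add_cancel]
  have h3 : (m - 1) *ᵥ w = 0 := mem_KS.1 (e2 ▸ h12 hw) m hm hu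
  rw [conj_sub_one, ← mulVec_mulVec, ← mulVec_mulVec, h2, mulVec_sub, mulVec_smul, h3, smul_zero,
    sub_zero, e, p1, one_smul] at h1
  exact (X.add_mem_iff_right (sub m hm hu)).1 h1

end H69.SimDSL
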