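import Cfsg.Agent.H0.SimSpec
import Cfsg.Agent.H19.Blk
import Cfsg.Agent.H59.SU

/-! # S3694 (tower SIM): job `SQ`. -/

set_option autoImplicit false

namespace H69.SimSQ

open Subgroup Cfsg H98 Matrix H0.Sim Module
open scoped commutatorElement

section herm

variable {F V : Type*} [Field F] [AddCommGroup V] [Module F V] {σ : F →+* F}
  {B : V →ₛₗ[σ] V →ₗ[F] F} [Finite F] [FiniteDimensional F V]

/-- A linear map that commutes with all special isometries is a scalar. -/
theorem scalar_of_comm (h : H59.IsHerm B) (hV : 2 ≤ finrank F V) (g : V →ₗ[F] V)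
    (hc : ∀ t ∈ H59.sisom B, ∀ x, t (g x) = g (t x)) : ∃ a : F, ∀ x, g x = a • x := by
  obtain ⟨δ, hδ0, hδ⟩ := H59.exists_trace_zero_ne_zero h.ne_id h.invol
  have k : ∀ p, B p p = 0 → ∀ x, B p (g x) • p = B p x • g p := fun p hp x => by
    obtain ⟨t, ht, htx⟩ := h.exists_transv hp hδ
    have := hc t (H59.axisGrp_le_sisom hp ht) x
    rw [htx, htx, map_add, map_smul, add_right_inj, mul_smul, mul_smul] at this
    exact smul_right_injective V hδ0 this
  have k1 : ∀ p, p ≠ 0 → B p p = 0 → ∃ a : F, g p = a • p ∧ ∀ x, B p (g x) = a * B p x := by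
    intro p hp0 hp
    obtain ⟨d, hd, -⟩ := h.exists_ne_zero_ne_zero hp0 hp0
    have e : g p = ((B p d)⁻¹ * B p (g d)) • p := by
      rw [mul_smul, k p hp d, smul_smul, inv_mul_cancel₀ hd, one_smul]
    refine ⟨_, e, fun x => smul_left_injective F hp0 ?_⟩
    simp only
    rw [k p hp x, e, smul_smul, mul_comm]
  obtain ⟨e, -, he0, he⟩ := h.exists_isotropic_mem (W := ⊤) (by simpa using hV)
  obtain ⟨a, -, ha⟩ := k1 e he0 he
  refine ⟨a, fun x => sub_eq_zero.1 (h.nondeg _ fun d => h.eq_zero_comm.1 ?_)⟩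
  have k2 : ∀ d, B e d ≠ 0 → B d (g x - a • x) = 0 := fun d hd => by
    obtain ⟨f, hef, hf, α, β, rfl⟩ := h.exists_isotropic_partner he hd
    have hβ : β ≠ 0 := by rintro rfl; simp [he] at hef
    obtain ⟨b, hb, hb'⟩ := k1 _ (by intro e0; rw [e0] at hef; simp at hef) hf
    have h1 := ha (α • e + β • d)
    rw [hb, H59.form_smul_right, hef, mul_one, mul_one] at h1
    have h2 := hb' x
    rw [h1] at h2
    simp only [map_add, LinearMap.add_apply, H59.form_smul_left, ha x] at h2
    have h3 : σ β ≠ 0 := by simpa using hβ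
    rw [map_sub, H59.form_smul_right]
    exact mul_left_cancel₀ h3 (by linear_combination h2)
  by_cases hd : B e d = 0
  · obtain ⟨d', hd', -⟩ := h.exists_ne_zero_ne_zero he0 he0
    have h1 := k2 (d + d') (by simpa [hd] using hd')
    rwa [map_add, LinearMap.add_apply, k2 d' hd', add_zero] at h1
  · exact k2 d hd

end herm

theorem of_quasi {G : Type*} [Group G] {S Y N : Subgroup G} (hS : IsQuasisimple S) (hY : Y ≤ N)
    (hN : N ≤ normalizer (S : Set G)) (h : S ≤ normalizer (Y : Set G)) :
    Y ≤ centralizer (S : Set G) ∨ S ≤ Y := by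
  have : (Y.subgroupOf S).Normal := ⟨fun y hy s =>
    (conj_mem_of_mem_normalizer (h s.2) hy : (s : G) * y * (s : G)⁻¹ ∈ Y)⟩
  rcases H14.quasi_normal hS (Y.subgroupOf S) with e | e
  · exact .inr (subgroupOf_eq_top.1 e)
  refine .inl (commutator_eq_bot_iff_le_centralizer.1 (H14.commutator_eq_bot_of_perfect ?_ ?_))
  · have := hS.1
    rw [← map_subtype_commutator, Group.IsPerfect.commutator_eq_top, ← MonoidHom.range_eq_map,
      range_subtype]
  · refine commutator_eq_bot_iff_le_centralizer.2 fun x hx s hs => ?_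
    exact congrArg Subtype.val (mem_center_iff.1
      (e (show (⟨x, commutator_le_right' (hY.trans hN) hx⟩ : S) ∈ Y.subgroupOf S from
        commutator_le_left' h hx)) ⟨s, hs⟩)

variable {n : ℕ} {F : Type} [Field F]

theorem sg_eq (u : Bool) (q : ℕ) : Sg n F u q =
    ((Gam n F u q).comap SpecialLinearGroup.toGL).map SpecialLinearGroup.toGL := by
  ext g
  constructor
  · rintro ⟨h1, h2⟩
    have h3 : (g : Mt n F).det = 1 := congrArg Units.val h2
    have e : (SpecialLinearGroup.toGL ⟨g, h3⟩ : GL (Fin n) F) = g := Units.ext rfl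
    exact ⟨_, mem_comap.2 (e.symm ▸ h1), e⟩
  · rintro ⟨s, hs, rfl⟩
    exact ⟨hs, Units.ext s.2⟩

theorem jobSQ : H0.Sim.JobSQ := by
  intro n F _ _ u q P
  have h3 : ∀ m : Mt n F, (∀ s ∈ Sg n F u q, (s : Mt n F) * m = m * s) →
      ∃ c : F, m = Matrix.scalar (Fin n) c := by
    intro m hm
    rw [sg_eq] at hm
    cases u
    · obtain ⟨c, hc⟩ := Matrix.mem_range_scalar_of_commute_transvectionStruct (M := m) fun t =>
        hm _ ⟨⟨t.toMatrix, by simp⟩, mem_top _, rfl⟩
      exact ⟨c, hc.symm⟩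
    · have hF : Fintype.card F = q ^ 2 := by simpa using P.card
      obtain ⟨c, hc⟩ := scalar_of_comm (H59.isHerm_uForm hF n) (by simpa using P.two)
        (Matrix.toLin' m) fun t ht x => by
          obtain ⟨s, e⟩ := (H59.suEquiv hF n).surjective ⟨t, ht⟩
          obtain rfl : _ = t := congrArg Subtype.val e
          have := hm _ ⟨s.1, s.2, rfl⟩
          rw [H59.suEquiv_apply, H59.suEquiv_apply, toLin'_apply, toLin'_apply, mulVec_mulVec,
            mulVec_mulVec]
          exact congrArg (· *ᵥ x) this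
      refine ⟨c, H59.matrix_ext_mulVec fun x => (hc x).trans ?_⟩
      ext i
      simp [mulVec_diagonal]
  have h1 : IsQuasisimple (Sg n F u q) := by
    rw [sg_eq]
    refine H14.quasi_of_mulEquiv ?_ (equivMapOfInjective _ _ SpecialLinearGroup.toGL_injective)
    cases u
    · exact H14.quasi_of_mulEquiv (H19.Blk.quasi_sl P.two fun e => by
        have := P.card
        have := (P.n2 e).2
        simp at *
        omega) topEquiv.symm
    · have hF : Fintype.card F = q ^ 2 := by simpa using P.card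
      have hn : 3 ≤ n := by
        have := P.two
        by_contra c
        simpa using (P.n2 (by omega)).1
      exact ⟨⟨H59.commutator_SU hF hn (P.n3 rfl)⟩, H59.isSimpleGroup_PSU hF hn (P.n3 rfl)⟩
  refine ⟨h1, fun Y hY hn => ?_, h3⟩
  refine (of_quasi h1 hY (le_normalizer_inf le_normalizer le_normalizer_of_normal) hn).imp_left
    fun hc y hy => ⟨hY hy, ?_⟩
  obtain ⟨c, hc⟩ := h3 y fun s hs => congrArg Units.val (hc hy s hs)
  exact GeneralLinearGroup.mem_center_iff_val_mem_range_scalar.2 ⟨c, hc.symm⟩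

end H69.SimSQ
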