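import Cfsg.Agent.H36.O84Spec

/-! Tower O84, slot U5: every copy of the orthogonal group is conjugate to one of the two candidates. -/

set_option autoImplicit false

namespace H69.O84U5

open Matrix H36.O84

universe u

variable {Γ : Type} [Group Γ]

theorem cS_inj (g : Γ) : Function.Injective (MulAut.conj g).toMonoidHom := (MulAut.conj g).injective

theorem cS_mul (g h : Γ) (H : Subgroup Γ) : cS (g * h) H = cS g (cS h H) := by
  rw [cS, cS, cS, Subgroup.map_map, map_mul]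
  rfl

theorem cS_self {g : Γ} {H : Subgroup Γ} (h : g ∈ H) : cS g H = H := by
  ext x
  refine ⟨?_, fun hx => ⟨g⁻¹ * x * g, H.mul_mem (H.mul_mem (H.inv_mem h) hx) h, by
    simp [mul_assoc]⟩⟩
  rintro ⟨y, hy, rfl⟩
  exact H.mul_mem (H.mul_mem h hy) (H.inv_mem h)

theorem act_ex (S : Sys Γ) (cr : CertR) {M : M4} (h : M ∈ G31) : IsUnit M ∧ ∃ g, Act S.τ g M := by
  induction h using Submonoid.closure_induction with
  | mem x hx =>
    obtain ⟨l, rfl⟩ := hx
    exact ⟨⟨⟨r l, r l, cr.2.1 l, cr.2.1 l⟩, rfl⟩, S.ν l, S.νA l⟩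
  | one => exact ⟨isUnit_one, 1, fun a => by simp⟩
  | mul x y _ _ hx hy =>
    obtain ⟨u1, g, hg⟩ := hx
    obtain ⟨u2, k, hk⟩ := hy
    refine ⟨u1.mul u2, g * k, fun a => ?_⟩
    rw [← mulVec_mulVec, ← hg, ← hk]
    simp [mul_assoc]

theorem cS_T [Finite Γ] (S : Sys Γ) {g : Γ} {M : M4} (h : Act S.τ g M) : cS g S.T = S.T := by
  refine Subgroup.eq_of_le_of_card_ge ?_ (Subgroup.card_map_of_injective (cS_inj g)).ge
  rintro _ ⟨_, ⟨a, rfl⟩, rfl⟩
  exact ⟨_, (h (Multiplicative.toAdd a)).symm⟩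

theorem mem_N [Finite Γ] (S : Sys Γ) {g : Γ} {M : M4} (h : Act S.τ g M) :
    g ∈ Subgroup.normalizer (S.T : Set Γ) := by
  refine Subgroup.mem_normalizer_iff.2 fun x => ⟨fun hx => ?_, fun hx => ?_⟩
  · rw [← cS_T S h]
    exact ⟨x, hx, rfl⟩
  · rw [← cS_T S h] at hx
    obtain ⟨y, hy, e⟩ := hx
    rwa [← cS_inj g (a₁ := y) (a₂ := x) e]

theorem good_cS [Finite Γ] (S : Sys Γ) {g : Γ} {M : M4} (h : Act S.τ g M) {X : Subgroup Γ}
    (hX : S.Good X) : S.Good (cS g X) := by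
  refine ⟨(cS_T S h).ge.trans (Subgroup.map_mono hX.1), ?_⟩
  rw [← cS_self (mem_N S h), ← Subgroup.map_inf _ _ _ (cS_inj g),
    Subgroup.card_map_of_injective (cS_inj g)]
  exact hX.2

theorem jobU5 : JobU5.{u} := by
  intro Γ _ _ S Om _ cr cq h5 H hH
  obtain ⟨g, q, hq, e, gd⟩ := h5 H hH
  obtain ⟨i, M, hM, h1, h2⟩ := cq q hq
  obtain ⟨u, k, hk⟩ := act_ex S cr hM
  have key : ∀ l l', M * r l = r l' * M → cS k (S.K l) = S.K l' := fun l l' h => by
    obtain ⟨m, a, b⟩ := S.pres k M hk l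
    rw [b, cr.1 (u.mul_right_cancel (a.symm.trans h))]
  have hJ : cS k (cS g H) = S.J i := by
    rw [e, cS, Subgroup.map_iSup]
    refine le_antisymm (iSup_le fun j => ?_) (iSup_le fun j => ?_)
    · obtain ⟨j', h⟩ := h1 j
      exact (key _ _ h).le.trans (le_iSup (fun k => S.K (Q i k)) j')
    · obtain ⟨j', h⟩ := h2 j
      exact (key _ _ h).ge.trans (le_iSup (fun j => cS k (S.K (q j))) j')
  exact ⟨k * g, i, (cS_mul k g H).trans hJ, hJ ▸ good_cS S hk gd⟩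

end H69.O84U5
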