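import Cfsg.Agent.H42.SimXBSpec

/-! Tower SIM, chapter XA part two: job `Dg` (the diagonal torus of a frame). -/

set_option autoImplicit false

namespace H69.SimDg

open Subgroup Cfsg H98 Matrix H0.Sim H42.SX

variable {n : ℕ} {F : Type} [Field F]

/-- Diagonal matrices. -/
def dU (n : ℕ) (F : Type) [Field F] : (Fin n → Fˣ) →* GL (Fin n) F :=
  (Units.map (Matrix.diagonalRingHom (Fin n) F).toMonoidHom).comp
    (MulEquiv.piUnits (M := fun _ : Fin n => F)).symm.toMonoidHom

theorem val_dU (t : Fin n → Fˣ) : (dU n F t : Mt n F) = diagonal fun i => (t i : F) := rfl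

theorem conj_diag (c : GL (Fin n) F) (a : Fin n → F) :
    (c : Mt n F) * diagonal a * ((c⁻¹ : GL (Fin n) F) : Mt n F) = ∑ i, a i • fr c i := by
  have : diagonal a = ∑ i, a i • (Matrix.single i i 1 : Mt n F) := by
    ext i j
    simp only [Matrix.sum_apply, Matrix.smul_apply, Matrix.single_apply, diagonal_apply, smul_eq_mul]
    rw [Finset.sum_eq_single i (fun k _ hk => by simp [hk]) (by simp)]
    simp
  rw [this, Finset.mul_sum, Finset.sum_mul]
  simp only [fr, mul_smul_comm, smul_mul_assoc]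

theorem dU_mem {u : Bool} {q : ℕ} (t : Fin n → Fˣ) : dU n F t ∈ Gam n F u q ↔ ∀ i, t i ∈ mu F u q := by
  cases u
  · simp [Gam, mu]
  have e : ∀ i, t i ∈ mu F true q ↔ (t i : F) * (t i : F) ^ q = 1 := fun i => by
    simp [mu, Units.ext_iff, pow_succ']
  have k : ∀ v w : Fin n → F, hermForm n F q ((dU n F t : Mt n F) *ᵥ v) ((dU n F t : Mt n F) *ᵥ w) =
      ∑ i, ((t i : F) * (t i : F) ^ q) * (v i * w i ^ q) := fun v w => by
    simp only [hermForm, val_dU, mulVec_diagonal]
    exact Finset.sum_congr rfl fun i _ => by ring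
  refine ⟨fun h i => (e i).2 ?_, fun h v w => (k v w).trans ?_⟩
  · have := (k _ _).symm.trans (h (Pi.single i 1) (Pi.single i 1))
    simp only [hermForm] at this
    rw [Finset.sum_eq_single i (fun j _ hj => by simp [hj]) (by simp),
      Finset.sum_eq_single i (fun j _ hj => by simp [hj]) (by simp)] at this
    simpa using this
  · simp [hermForm, fun i => (e i).1 (h i)]

theorem jobDg : H42.SX.JobDg := by
  intro n F _ _ u q c _ hc
  let ι : (Fin n → mu F u q) →* (Fin n → Fˣ) := (mu F u q).subtype.compLeft (Fin n)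
  let dg : (Fin n → mu F u q) →* GL (Fin n) F :=
    (MulAut.conj c).toMonoidHom.comp ((dU n F).comp ι)
  have e0 : ∀ t, dg t = c * dU n F (fun i => (t i : Fˣ)) * c⁻¹ := fun t => rfl
  have e1 : ∀ t, (dg t : Mt n F) = ∑ i, ((t i : Fˣ) : F) • fr c i := fun t => conj_diag c _
  refine ⟨dg, fun s t h => ?_, fun t => ⟨?_, fun h => ⟨?_, ?_⟩⟩, fun x hx hd => ?_,
    fun b π hb t => Units.ext ?_⟩
  · rw [e0, e0, mul_left_inj, mul_right_inj] at h
    have := diagonal_injective (congrArg Units.val h)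
    exact funext fun i => Subtype.ext (Units.ext (congrFun this i))
  · rw [e1]
    exact Submodule.sum_mem _ fun i _ => Submodule.smul_mem _ _ (Submodule.subset_span ⟨i, rfl⟩)
  · exact mul_mem (mul_mem hc ((dU_mem _).2 fun i => (t i).2)) ((Gam n F u q).inv_mem hc)
  · change GeneralLinearGroup.det (dg t) = 1
    rw [e0, map_mul, map_mul, map_inv, mul_inv_cancel_comm]
    refine Units.ext ?_
    have := congrArg (fun z : mu F u q => ((z : Fˣ) : F)) h
    simpa [val_dU] using this
  · obtain ⟨a, ha⟩ := (Submodule.mem_span_range_iff_exists_fun F).1 hd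
    rw [← conj_diag] at ha
    have h1 : ((c⁻¹ * x * c : GL (Fin n) F) : Mt n F) = diagonal a := by
      rw [Units.val_mul, Units.val_mul, ← ha, mul_assoc, mul_assoc, Units.inv_mul, mul_one,
        ← mul_assoc, Units.inv_mul, one_mul]
    have h2 : ∀ i, a i ≠ 0 := fun i => by
      have := (c⁻¹ * x * c).isUnit
      rw [h1, isUnit_diagonal] at this
      exact (Pi.isUnit_iff.1 this i).ne_zero
    have h3 : dU n F (fun i => Units.mk0 (a i) (h2 i)) = c⁻¹ * x * c := Units.ext h1.symm
    have h4 := (dU_mem (u := u) (q := q) _).1 (h3 ▸ mul_mem (mul_mem (inv_mem hc) hx) hc)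
    refine ⟨fun i => ⟨_, h4 i⟩, ?_⟩
    rw [e0, h3]
    group
  · rw [Units.val_mul, Units.val_mul, e1, e1, Finset.mul_sum, Finset.sum_mul,
      ← Equiv.sum_comp π (fun k => ((t (π⁻¹ k) : Fˣ) : F) • fr c k)]
    refine Finset.sum_congr rfl fun i _ => ?_
    rw [mul_smul_comm, smul_mul_assoc, hb i, Equiv.Perm.inv_def, Equiv.symm_apply_apply]

end H69.SimDg
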