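/- E7MAX (S5934): `JobA2`. -/
import Cfsg.Agent.H36.E7MSpec

set_option autoImplicit false

namespace H69.E7M
open H36.E7M

theorem jobA2 : JobA2 := by
  intro p a1 M s g hle
  have inM : ∀ q ∈ Q, cj g q ∈ M := fun q hq => hle (mem_cS.2 (by rwa [cj_inv_cj]))
  have hb : cj g z ∈ M := inM z z_mem_Q
  have zo : z ∈ orb M := ⟨1, M.one_mem, (cj_one z).symm⟩
  by_cases ho : cj g z ∈ orb M
  · obtain ⟨m, hm, e⟩ := ho
    have hc : Commute (g⁻¹ * m) z := by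
      rw [← cj_eq_iff, ← cj_cj, ← e, cj_inv_cj]
    refine s.ne_top (p.gen M (fun q hq => ?_) s.y_mem)
    have h1 := cj_mem (M.inv_mem hm) (inM _ (p.czQ _ hc q hq))
    rwa [cj_cj g, mul_inv_cancel_left, cj_inv_cj] at h1
  · obtain ⟨k, hk⟩ := p.r5 z z_mem_D _ (D_cj g z_mem_D)
    have k0 : k = 0 := by
      by_contra h
      exact ho (a1 M s z zo _ hb k h hk)
    subst k0
    have h1 : Rel 0 z (cj g⁻¹ z) := by
      have := (p.sym _ _ _ hk).cj g⁻¹
      rwa [cj_inv_cj] at this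
    obtain ⟨c, hc, hn⟩ := p.pol2 _ h1
    obtain ⟨cD, cQ, -⟩ := (p.col c).1 hc
    obtain ⟨k, hk'⟩ := p.r5 z z_mem_D _ (D_cj g cD)
    by_cases k0 : k = 0
    · subst k0
      refine hn ((commute_cj (g := g)).1 ?_)
      rw [cj_cj_inv]
      exact p.pol _ _ hk'
    · exact ho (a1 M s _ (a1 M s z zo _ (inM c cQ) k k0 hk') _ hb 1 one_ne_zero
        (p.sym _ _ _ (hc.cj g)))

end H69.E7M
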