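/- Tower E82, jobs `Dih` and `Y`: dihedral groups of twice odd order in characteristic two, and the
two tori of `SL₂(2 ^ f)`. -/
import Cfsg.Agent.H40.E82Spec
import Cfsg.Agent.H56.WtK

set_option autoImplicit false

namespace H69.E82

open Cfsg.Lie H63 H64 H65 H46 H14.E8 Matrix Module H40.E8F H56.SL2M
open scoped MatrixGroups Classical

universe u

theorem mem_fx {k V : Type} [Field k] [AddCommGroup V] [Module k V] {f : End k V} {v : V} :
    v ∈ fx f ↔ f v = v := by
  rw [fx, End.mem_eigenspace_iff, one_smul]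

theorem jobDih : H40.E82.JobDih := by
  intro k V _ _ _ _ _ h w n hn hh1 hw hwh
  have hwh' : ∀ v, h (w (h v)) = w v := fun v => by
    rw [← End.mul_apply, ← End.mul_apply, hwh]
  have hw' : ∀ v, w (w v) = v := fun v => by rw [← End.mul_apply, hw, End.one_apply]
  have h2 : ∀ v : V, v + v = 0 := fun v => by
    rw [← two_smul k v, CharTwo.two_eq_zero, zero_smul]
  have hn1 : (n : k) = 1 := by
    obtain ⟨m, rfl⟩ := hn
    push_cast
    rw [CharTwo.two_eq_zero, zero_mul, zero_add]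
  set N : Submodule k V := LinearMap.range (h - 1) with hN
  have hker : LinearMap.ker (h - 1) = fx h := by
    ext v
    rw [mem_fx, LinearMap.mem_ker, LinearMap.sub_apply, End.one_apply, sub_eq_zero]
  have hpow : ∀ v, h v = v → ∀ i : ℕ, (h ^ i) v = v := fun v hv i => by
    induction i with
    | zero => rfl
    | succ i ih => rw [pow_succ, End.mul_apply, hv, ih]
  have hdis : ∀ v ∈ N, h v = v → v = 0 := by
    rintro _ ⟨u, rfl⟩ hv
    have e1 : (∑ i ∈ Finset.range n, h ^ i) ((h - 1) u) = 0 := by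
      rw [← End.mul_apply, geom_sum_mul, hh1, sub_self, LinearMap.zero_apply]
    rw [LinearMap.sum_apply, Finset.sum_congr rfl fun i _ => hpow _ hv i, Finset.sum_const,
      Finset.card_range, ← Nat.cast_smul_eq_nsmul k, hn1, one_smul] at e1
    exact e1
  have hNw : ∀ v ∈ N, w v ∈ N := by
    rintro _ ⟨u, rfl⟩
    refine ⟨-w (h u), ?_⟩
    simp only [LinearMap.sub_apply, End.one_apply, map_neg, map_sub, hwh']
    abel
  have hNh : ∀ v ∈ N, h v ∈ N := by
    rintro _ ⟨u, rfl⟩
    exact ⟨h u, by simp only [LinearMap.sub_apply, End.one_apply, map_sub]⟩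
  have hHw : ∀ v, h v = v → h (w v) = w v := fun v hv => by
    conv_lhs => rw [← hv]
    exact hwh' v
  have d1 : finrank k N + finrank k (fx h) = finrank k V := by
    rw [← hker]; exact LinearMap.finrank_range_add_finrank_ker _
  have hinf : N ⊓ fx h = ⊥ := by
    rw [eq_bot_iff]
    intro v hv
    exact hdis v hv.1 (mem_fx.1 hv.2)
  have htop : N ⊔ fx h = ⊤ := by
    refine Submodule.eq_top_of_finrank_eq ?_
    have := Submodule.finrank_sup_add_finrank_inf_eq N (fx h)
    rw [hinf, finrank_bot] at this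
    omega
  have d2 : finrank k (fx w) = finrank k ↥(N ⊓ fx w) + finrank k ↥(fx h ⊓ fx w) := by
    have e1 : (N ⊓ fx w) ⊔ (fx h ⊓ fx w) = fx w := by
      refine le_antisymm (sup_le inf_le_right inf_le_right) fun v hv => ?_
      have hv' : v ∈ N ⊔ fx h := htop ▸ Submodule.mem_top
      obtain ⟨a, ha, b, hb, rfl⟩ := Submodule.mem_sup.1 hv'
      have e2 : w a + w b = a + b := by rw [← map_add]; exact mem_fx.1 hv
      have e3 : w a - a = b - w b := by rw [sub_eq_sub_iff_add_eq_add, e2, add_comm]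
      have e4 : w a - a = 0 := hdis _ (N.sub_mem (hNw a ha) ha) (by
        rw [e3, map_sub, mem_fx.1 hb, hHw b (mem_fx.1 hb)])
      refine Submodule.add_mem_sup ⟨ha, mem_fx.2 (sub_eq_zero.1 e4)⟩ ⟨hb, mem_fx.2 ?_⟩
      exact (sub_eq_zero.1 (e3.symm.trans e4)).symm
    have e2 : (N ⊓ fx w) ⊓ (fx h ⊓ fx w) = ⊥ := by
      rw [eq_bot_iff, ← hinf]
      exact inf_le_inf inf_le_left inf_le_left
    have := Submodule.finrank_sup_add_finrank_inf_eq (N ⊓ fx w) (fx h ⊓ fx w)
    rw [e1, e2, finrank_bot] at this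
    omega
  -- lower bound
  have d3 : finrank k N ≤ 2 * finrank k ↥(N ⊓ fx w) := by
    let φ : N →ₗ[k] V := (w - 1) ∘ₗ N.subtype
    have e1 : LinearMap.range φ ≤ N ⊓ fx w := by
      rintro _ ⟨v, rfl⟩
      refine ⟨N.sub_mem (hNw _ v.2) v.2, mem_fx.2 ?_⟩
      change w (w v - v) = w v - v
      rw [map_sub, hw', sub_eq_sub_iff_add_eq_add, h2, h2]
    have e2 : (LinearMap.ker φ).map N.subtype ≤ N ⊓ fx w := by
      rintro _ ⟨v, hv, rfl⟩
      exact ⟨v.2, mem_fx.2 (sub_eq_zero.1 hv)⟩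
    have e3 := Submodule.finrank_mono e1
    have e4 := Submodule.finrank_mono e2
    rw [Submodule.finrank_map_subtype_eq] at e4
    have e5 := LinearMap.finrank_range_add_finrank_ker φ
    omega
  -- upper bound
  have d4 : 2 * finrank k ↥(N ⊓ fx w) ≤ finrank k N := by
    let ψ : (↥(N ⊓ fx w) × ↥(N ⊓ fx w)) →ₗ[k] V :=
      (N ⊓ fx w).subtype ∘ₗ LinearMap.fst k _ _ - h ∘ₗ (N ⊓ fx w).subtype ∘ₗ LinearMap.snd k _ _
    have e1 : LinearMap.range ψ ≤ N := by
      rintro _ ⟨⟨a, b⟩, rfl⟩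
      exact N.sub_mem a.2.1 (hNh _ b.2.1)
    have e2 : Function.Injective ψ := by
      rw [← LinearMap.ker_eq_bot, eq_bot_iff]
      rintro ⟨a, b⟩ hab
      have e3 : (a : V) = h b := sub_eq_zero.1 hab
      have e4 : h (h b) = b := by
        have := hwh' b
        rw [← e3, mem_fx.1 a.2.2, mem_fx.1 b.2.2] at this
        rw [← e3, this]
      have e5 : h b = b := by
        obtain ⟨m, rfl⟩ := hn
        have e6 : ∀ i : ℕ, (h ^ (2 * i)) (b : V) = b := fun i => by
          induction i with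
          | zero => rfl
          | succ i ih =>
            rw [mul_add, pow_add, End.mul_apply, mul_one, sq, End.mul_apply, e4, ih]
        have e7 : (h ^ (2 * m + 1)) (b : V) = b := by rw [hh1]; rfl
        rwa [pow_succ', End.mul_apply, e6] at e7
      have e6 : (b : V) = 0 := hdis _ b.2.1 e5
      have e7 : (a : V) = 0 := by rw [e3, e6, map_zero]
      exact Prod.ext (Subtype.ext e7) (Subtype.ext e6)
    have e3 := Submodule.finrank_mono e1
    rw [LinearMap.finrank_range_of_inj e2, finrank_prod] at e3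
    omega
  omega

open Polynomial in
theorem mem_range_of_pow_card {F K : Type*} [Field F] [Fintype F] [Field K] (ι : F →+* K) {τ : K}
    (h : τ ^ Fintype.card F = τ) : τ ∈ ι.range := by
  have hs : (Polynomial.X ^ Fintype.card F - Polynomial.X : Polynomial F).Splits := by
    rw [splits_iff_card_roots, FiniteField.roots_X_pow_card_sub_X,
      FiniteField.X_pow_card_sub_X_natDegree_eq F Fintype.one_lt_card]
    rfl
  refine hs.mem_range_of_isRoot (FiniteField.X_pow_card_sub_X_ne_zero F Fintype.one_lt_card) ?_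
  simp [h]

theorem orderOf_of_eig {k F : Type*} [Field k] [Field F] {ι : F →+* k} {y : SL(2, F)} {μ : kˣ}
    (h : Eig ι y μ (μ⁻¹ : kˣ)) : orderOf y = orderOf μ := by
  refine orderOf_eq_orderOf_iff.2 fun m => ?_
  rw [(h.pow m).eq_one_iff, ← Units.val_pow_eq_pow_val, ← Units.val_pow_eq_pow_val,
    Units.val_eq_one, Units.val_eq_one, inv_pow, inv_eq_one, and_self]

theorem jobY : H40.E82.JobY.{u} := by
  intro F _ _ f hf hF
  have h2 : (2 : F) = 0 := by
    have := Nat.cast_card_eq_zero F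
    rw [hF] at this
    push_cast at this
    exact pow_eq_zero_iff (by omega) |>.1 this
  haveI : CharP F 2 := (CharP.charP_iff_prime_eq_zero Nat.prime_two).2 (by exact_mod_cast h2)
  letI : Algebra (ZMod 2) F := ZMod.algebra F 2
  let ι : F →+* H40.E82.K2 := (IsAlgClosed.lift : F →ₐ[ZMod 2] H40.E82.K2).toRingHom
  obtain ⟨s, hs⟩ := IsCyclic.exists_ofOrder_eq_natCard (α := Fˣ)
  rw [Nat.card_units, Nat.card_eq_fintype_card, hF] at hs
  have hζ : orderOf (Units.map (ι : F →* H40.E82.K2) s) = 2 ^ f - 1 := by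
    rw [← hs]
    exact orderOf_injective (Units.map (ι : F →* H40.E82.K2))
      (Units.map_injective ι.injective) s
  have hE : Eig ι (hh s) (Units.map (ι : F →* H40.E82.K2) s : H40.E82.K2ˣ)
      ((Units.map (ι : F →* H40.E82.K2) s)⁻¹ : H40.E82.K2ˣ) := by
    rw [Units.val_inv_eq_inv_val]
    exact eig_torus ι s
  have hq : ((2 ^ f + 1 : ℕ) : H40.E82.K2) ≠ 0 := by
    push_cast
    rw [CharTwo.two_eq_zero (R := H40.E82.K2), zero_pow (by omega), zero_add]
    exact one_ne_zero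
  obtain ⟨μ, hμ⟩ : ∃ μ : H40.E82.K2ˣ, orderOf μ = 2 ^ f + 1 := by
    haveI : NeZero ((2 ^ f + 1 : ℕ) : H40.E82.K2) := ⟨hq⟩
    obtain ⟨ζ, hζ⟩ := HasEnoughRootsOfUnity.exists_primitiveRoot H40.E82.K2 (2 ^ f + 1)
    exact ⟨_, (hζ.isUnit_unit NeZero.out).eq_orderOf.symm⟩
  have hμq : μ ^ 2 ^ f = μ⁻¹ := by
    rw [eq_inv_iff_mul_eq_one, ← pow_succ, ← hμ, pow_orderOf_eq_one]
  obtain ⟨t, ht⟩ : ((μ : H40.E82.K2) + (μ⁻¹ : H40.E82.K2ˣ)) ∈ ι.range := by
    refine mem_range_of_pow_card ι ?_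
    rw [hF, add_pow_char_pow, ← Units.val_pow_eq_pow_val, ← Units.val_pow_eq_pow_val, inv_pow, hμq,
      inv_inv, add_comm]
  have hμ1 : (μ : H40.E82.K2) * (μ⁻¹ : H40.E82.K2ˣ) = 1 := μ.mul_inv
  have hμ2 : (μ : H40.E82.K2) - (μ⁻¹ : H40.E82.K2ˣ) ≠ 0 := fun e => by
    have e1 : μ = μ⁻¹ := Units.ext (sub_eq_zero.1 e)
    have e2 : μ ^ 2 = 1 := by rw [sq]; nth_rw 2 [e1]; exact mul_inv_cancel μ
    have e3 := Nat.le_of_dvd two_pos (orderOf_dvd_of_pow_eq_one e2)
    have : 2 ^ 1 ≤ 2 ^ f := Nat.pow_le_pow_right two_pos hf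
    omega
  let y : SL(2, F) := ⟨!![0, -1; 1, t], by simp [det_fin_two]⟩
  have hy : y.1 = !![0, -1; 1, t] := rfl
  have hE' : Eig ι y μ (μ⁻¹ : H40.E82.K2ˣ) := by
    refine ⟨![1, -(μ : H40.E82.K2)], ![1, -((μ⁻¹ : H40.E82.K2ˣ) : H40.E82.K2)], ?_,
      fun i => ?_, fun i => ?_⟩
    · intro e
      simp only [cons_val_zero, cons_val_one] at e
      exact hμ2 (by linear_combination e)
    all_goals
      fin_cases i <;> simp only [hy, Fin.zero_eta, Fin.mk_one, cons_val_zero, cons_val_one, of_apply,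
        cons_val', cons_val_fin_one, map_zero, map_neg, map_one, ht]
    · ring
    · linear_combination -hμ1
    · ring
    · linear_combination -hμ1
  refine ⟨ι, s, Units.map (ι : F →* H40.E82.K2) s, μ, y, hs, rfl, hζ, (orderOf_of_eig hE).trans hζ,
    hE, ?_, hμ, (orderOf_of_eig hE').trans hμ, hE', ?_⟩
  · ext i j
    fin_cases i <;> fin_cases j <;> simp [hh_coe, ww_coe]
  · ext i j
    fin_cases i <;> fin_cases j <;> simp [hy, ww_coe]
    · linear_combination h2
    · linear_combination -h2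
    · linear_combination (-t) * h2

end H69.E82
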