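import Cfsg.Agent.H11.FBSpec
import Cfsg.Agent.S0120

/-! Tower FB (S3404), slot B1: a normal 3-complement of the three-point stabiliser. -/

set_option autoImplicit false

namespace H69.FBB1

open MulAction Subgroup H11.FB

universe u v

variable {G : Type u} [Group G]

theorem mem_of_coprime {K : Subgroup G} {g : G} {a b : ℕ} (h : a.Coprime b) (ha : g ^ a ∈ K)
    (hb : g ^ b ∈ K) : g ∈ K := by
  obtain ⟨x, y, e⟩ := Nat.isCoprime_iff_coprime.2 h
  have : g = (g ^ a) ^ x * (g ^ b) ^ y := by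
    rw [← zpow_natCast, ← zpow_natCast, ← zpow_mul, ← zpow_mul, ← zpow_add, mul_comm (a : ℤ),
      mul_comm (b : ℤ), e, zpow_one]
  rw [this]
  exact K.mul_mem (K.zpow_mem ha x) (K.zpow_mem hb y)

theorem mem_nrm [Finite G] {g h : G} (e : g * h * g⁻¹ ∈ zpowers h) :
    g ∈ normalizer (zpowers h : Set G) := by
  refine mem_normalizer_fintype ?_
  rintro _ ⟨k, rfl⟩
  have := (zpowers h).zpow_mem e k
  rwa [conj_zpow] at this

/-- Burnside's transfer theorem inside a subgroup -/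
theorem burn [Finite G] {X : Subgroup G} {p : ℕ} [Fact p.Prime] (S : Sylow p X)
    (h : normalizer ((S : Subgroup X) : Set X) ≤ centralizer ((S : Subgroup X) : Set X)) :
    ∃ X₁, Cpl X X₁ p := by
  let f := MonoidHom.transferSylow S h
  have hp : p.Prime := Fact.out
  refine ⟨f.ker.map X.subtype, map_subtype_le _, ?_, ?_, fun x hx c => ?_, fun x hx => ?_⟩
  · rintro m hm _ ⟨y, hy, rfl⟩
    exact ⟨_, (inferInstance : f.ker.Normal).conj_mem y hy ⟨m, hm⟩, rfl⟩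
  · rw [card_map_of_injective X.subtype_injective]
    exact ((Nat.Prime.coprime_iff_not_dvd hp).2
      (MonoidHom.not_dvd_card_ker_transferSylow S h)).symm
  · refine ⟨⟨x, hx⟩, ?_, rfl⟩
    obtain ⟨k, e⟩ := S.2 (f ⟨x, hx⟩)
    have h1 : orderOf (f ⟨x, hx⟩) ∣ orderOf x := by
      rw [← orderOf_mk x hx]
      exact orderOf_map_dvd f _
    exact orderOf_eq_one_iff.1 (((c.coprime_dvd_left h1).pow_right k).eq_one_of_dvd
      (orderOf_dvd_of_pow_eq_one e))
  · obtain ⟨k, e⟩ := S.2 (f ⟨x, hx⟩)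
    refine ⟨k, ⟨x, hx⟩ ^ p ^ k, ?_, rfl⟩
    change f _ = 1
    rw [map_pow, e]

/-- a `3'`-element of `H` that normalises the 3-group `S` centralises it -/
theorem cent [Finite G] {H S : Subgroup G} {h w : G} {m : ℕ} (hS : IsPGroup 3 S) (hn : Nm S H)
    (hu : ∀ x ∈ H, orderOf x = 3 → x ∈ zpowers h) (hw : w ∈ H) (wh : w * h = h * w)
    (wS : ∀ y ∈ S, w * y * w⁻¹ ∈ S) (wm : w ^ m = 1) (cm : m.Coprime 3) {y : G} (hy : y ∈ S) :
    w * y = y * w := by
  have := Fact.mk Nat.prime_three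
  have wR : w ∈ normalizer ((S ⊓ H : Subgroup G) : Set G) := mem_normalizer_fintype fun x hx =>
    ⟨wS x hx.1, H.mul_mem (H.mul_mem hw hx.2) (H.inv_mem hw)⟩
  have h1 : (S ⊓ H).normalizerMonoidHom ⟨w, wR⟩ = 1 := by
    refine Cfsg.Agent.S0120.result (p := 3) (by norm_num) (hS.to_inf_left) _ ?_ fun x hx => ?_
    · refine cm.coprime_dvd_left (orderOf_dvd_of_pow_eq_one ?_)
      rw [← map_pow, show (⟨w, wR⟩ : normalizer ((S ⊓ H : Subgroup G) : Set G)) ^ m = 1 from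
        Subtype.ext wm, map_one]
    · refine Subtype.ext (show w * x * w⁻¹ = x from ?_)
      by_cases x1 : (x : G) = 1
      · simp [x1]
      obtain ⟨k, e⟩ := hu x x.2.2 (orderOf_eq_prime (congrArg Subtype.val hx) x1)
      rw [← e, mul_inv_eq_iff_eq_mul]
      exact ((show Commute w h from wh).zpow_right k).eq
  have h2 : ∀ x ∈ S ⊓ H, w * x * w⁻¹ = x := fun x hx =>
    congrArg (fun φ : MulAut (S ⊓ H : Subgroup G) => (φ ⟨x, hx⟩ : G)) h1
  have h3 : w * y * w⁻¹ * y⁻¹ ∈ S ⊓ H := ⟨S.mul_mem (wS y hy) (S.inv_mem hy), by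
    simpa [mul_assoc] using H.mul_mem hw (hn y hy _ (H.inv_mem hw))⟩
  generalize hs : w * y * w⁻¹ * y⁻¹ = s at h3
  have h4 : ∀ j : ℕ, w ^ j * y * (w ^ j)⁻¹ = s ^ j * y := fun j => by
    induction j with
    | zero => simp
    | succ j ih =>
      calc w ^ (j + 1) * y * (w ^ (j + 1))⁻¹ = w * (w ^ j * y * (w ^ j)⁻¹) * w⁻¹ := by
            rw [pow_succ']; group
        _ = w * s ^ j * w⁻¹ * (w * y * w⁻¹ * y⁻¹) * y := by rw [ih]; group
        _ = s ^ (j + 1) * y := by rw [h2 _ (pow_mem h3 j), hs, pow_succ]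
  have h5 : s ^ m = 1 := by simpa [wm] using h4 m
  obtain ⟨k, e⟩ := hS ⟨s, h3.1⟩
  have h6 : s = 1 := mem_bot.1 (mem_of_coprime (cm.pow_right k) (mem_bot.2 h5)
    (mem_bot.2 (congrArg Subtype.val e)))
  rw [h6] at hs
  calc w * y = w * y * w⁻¹ * y⁻¹ * (y * w) := by group
    _ = y * w := by rw [hs, one_mul]

theorem jobB1 : JobB1.{u, v} := by
  intro b0 b2 G Ω _ _ _ _ _ _ a b c d K H P h cx hH h3 h6
  have := Fact.mk Nat.prime_three
  have hp : (orderOf h).Prime := h3 ▸ Nat.prime_three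
  have t1 := cx.th1 h hH hp
  have hL := cx.hy.fr.Hle
  have d3 : 3 ∣ Nat.card H := h3 ▸ orderOf_dvd_natCard H hH
  have mf : (Nat.card H).minFac = 3 := by
    have e1 := Nat.minFac_le_of_dvd (by norm_num) d3
    have e2 := (Nat.minFac_prime (n := Nat.card H) (by omega)).two_le
    have e3 : (Nat.card H).minFac ≠ 2 := fun e =>
      cx.odd.not_two_dvd_nat (e ▸ Nat.minFac_dvd _)
    omega
  have hN := (cx.th2 h hH hp).perf (Or.inl h6) (cx.fh.cen h hH (h3.trans mf.symm))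
  have LX : L4 G a b c d ≤ X3 G a b c := inf_le_left
  have hX : h ∈ X3 G a b c := LX (hL hH)
  have nH : Nm (normalizer (zpowers h : Set G)) H := fun g hg x hx => by
    have k : ∀ ω : Ω, h • ω = ω → (g * x * g⁻¹) • ω = ω := fun ω e => by
      rw [mul_smul, mul_smul, t1.fixH (by omega) x hx (g⁻¹ • ω), smul_inv_smul]
      rw [mem_fixedBy, ← mul_smul, ← hN _ (inv_mem hg), mul_smul, e]
    obtain ⟨e1, e2, e3, e4⟩ := mem_L4.1 (hL hH)
    exact (t1.nl _ (mem_L4.2 ⟨k a e1, k b e2, k c e3, k d e4⟩)).1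
      (mul_mem (mul_mem hg ((t1.nl x (hL hx)).2 hx)) (inv_mem hg))
  have cube : ∀ g ∈ normalizer (zpowers h : Set G) ⊓ X3 G a b c, g ^ 3 ∈ H := fun g hg => by
    have le : H ≤ normalizer (zpowers h : Set G) ⊓ X3 G a b c := fun x hx =>
      ⟨(t1.nl x (hL hx)).2 hx, LX (hL hx)⟩
    have : (H.subgroupOf (normalizer (zpowers h : Set G) ⊓ X3 G a b c)).Normal :=
      ⟨fun x hx y => nH y y.2.1 x hx⟩
    have e1 := (H.subgroupOf (normalizer (zpowers h : Set G) ⊓ X3 G a b c)).index_mul_card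
    rw [t1.cardX, h6, Nat.card_congr (subgroupOfEquivOfLe le).toEquiv] at e1
    have e2 := (H.subgroupOf (normalizer (zpowers h : Set G) ⊓ X3 G a b c)).pow_index_mem ⟨g, hg⟩
    rw [Nat.eq_of_mul_eq_mul_right Nat.card_pos e1] at e2
    exact e2
  have wc : ∀ g ∈ X3 G a b c, g * h * g⁻¹ * h = h * (g * h * g⁻¹) →
      g ∈ normalizer (zpowers h : Set G) := fun g hg e => mem_nrm (b2 cx hH h3 h6 g hg e)
  obtain ⟨S, hS⟩ := (show IsPGroup 3 (zpowers (⟨h, hX⟩ : X3 G a b c)) from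
    IsPGroup.of_card (n := 1) (by rw [Nat.card_zpowers, orderOf_mk, h3]; rfl)).exists_le_sylow
  have hS1 : (⟨h, hX⟩ : X3 G a b c) ∈ S := hS (mem_zpowers _)
  have Sc : ∀ y ∈ S, (y : G) * h = h * y := by
    by_contra k
    have := S.2.isNilpotent
    have lt : centralizer ({⟨⟨h, hX⟩, hS1⟩} : Set S) < ⊤ := lt_top_iff_ne_top.2 fun e =>
      k fun y hy => congrArg (fun z : S => (z.1 : G))
        (mem_centralizer_singleton_iff.1 (e.ge (mem_top (⟨y, hy⟩ : S))))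
    obtain ⟨g, g1, g2⟩ := SetLike.exists_of_lt (Group.normalizerCondition_of_isNilpotent _ lt)
    have e1 := (mem_normalizer_iff.1 g1 ⟨⟨h, hX⟩, hS1⟩).1 (mem_centralizer_singleton_iff.2 rfl)
    exact g2 (mem_centralizer_singleton_iff.2 (Subtype.ext (Subtype.ext (hN _ (wc g.1 g.1.2
      (congrArg (fun z : S => (z.1 : G)) (mem_centralizer_singleton_iff.1 e1)))))))
  have pS : IsPGroup 3 ((S : Subgroup (X3 G a b c)).map (X3 G a b c).subtype) := S.2.map _
  have ab := b0 cx hH h3 h6 (map_subtype_le _) pS (by rintro _ ⟨y, hy, rfl⟩; exact Sc y hy)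
  refine burn S fun g hg => ?_
  obtain ⟨k, m, hm, e⟩ := Nat.exists_eq_pow_mul_and_not_dvd (orderOf_pos g).ne' 3 (by norm_num)
  have cm : m.Coprime 3 := ((Nat.Prime.coprime_iff_not_dvd Nat.prime_three).2 hm).symm
  refine mem_of_coprime (cm.pow_right k) ?_ ?_
  · have p3 : IsPGroup 3 (zpowers (g ^ m)) := by
      rintro ⟨_, j, rfl⟩
      refine ⟨k, Subtype.ext ?_⟩
      change ((g ^ m) ^ j) ^ 3 ^ k = 1
      rw [← zpow_natCast, ← zpow_mul, mul_comm, zpow_mul, zpow_natCast, ← pow_mul, mul_comm, ← e,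
        pow_orderOf_eq_one, one_zpow]
    have e1 : g ^ m ∈ (S : Subgroup (X3 G a b c)) :=
      ((IsPGroup.inf_normalizer_sylow p3 S).le ⟨mem_zpowers _, pow_mem hg m⟩).2
    exact mem_centralizer_iff.2 fun y hy => Subtype.ext (ab _ ⟨y, hy, rfl⟩ _ ⟨_, e1, rfl⟩)
  · have e0 : (g ^ 3 ^ k) ^ m = 1 := by rw [← pow_mul, ← e, pow_orderOf_eq_one]
    have hg' := pow_mem hg (3 ^ k)
    generalize g ^ 3 ^ k = w at e0 hg'
    have e1 : (w : G) ^ m = 1 := congrArg Subtype.val e0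
    have wN : (w : G) ∈ normalizer (zpowers h : Set G) :=
      wc w w.2 (Sc _ ((mem_normalizer_iff.1 hg' _).1 hS1))
    have wH : (w : G) ∈ H := mem_of_coprime cm (e1 ▸ H.one_mem) (cube _ ⟨wN, w.2⟩)
    refine mem_centralizer_iff.2 fun y hy => Subtype.ext (cent (h := h) pS ?_
      (fun x hx x3 => cx.fh.uniq h hH x hx hp (x3.trans h3.symm)) wH (hN _ wN) ?_ e1 cm
      ⟨y, hy, rfl⟩).symm
    · rintro _ ⟨z, hz, rfl⟩
      refine nH _ (mem_nrm ?_)
      change (z : G) * h * (z : G)⁻¹ ∈ _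
      rw [Sc z hz, mul_inv_cancel_right]
      exact mem_zpowers h
    · rintro _ ⟨z, hz, rfl⟩
      exact ⟨_, (mem_normalizer_iff.1 hg' z).1 hz, rfl⟩

end H69.FBB1
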