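/- PN tower (S3399), item ELT: `jobIx2`, `jobElt`. -/
import Cfsg.Agent.H42.PnSpec

set_option autoImplicit false

namespace H69.PN
open Equiv MulAction Pointwise H2.Ln H42.PN

theorem jobIx2 : Ix2 := by
  intro Γ _ _ R y p hp hy hn hi
  set C : Subgroup Γ := Subgroup.centralizer {y} with hC
  have memC : ∀ a, a ∈ C ↔ y * a = a * y := fun a => by
    rw [hC, Subgroup.mem_centralizer_singleton_iff]; exact eq_comm
  have hi' : (C.subgroupOf R).index = 2 := hi
  have mul : ∀ a ∈ R, ∀ b ∈ R, (a * b ∈ C ↔ (a ∈ C ↔ b ∈ C)) := fun a ha b hb => by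
    have := Subgroup.mul_mem_iff_of_index_two hi' (a := ⟨a, ha⟩) (b := ⟨b, hb⟩)
    simpa [Subgroup.mem_subgroupOf] using this
  obtain ⟨k, hk, hkC⟩ : ∃ k ∈ R, k ∉ C := by
    by_contra h
    push Not at h
    have : C.subgroupOf R = ⊤ := eq_top_iff.2 fun a _ => h a.1 a.2
    rw [this, Subgroup.index_top] at hi'
    omega
  have hk' : y * k * y⁻¹ ∉ C := fun h => hkC (by
    rw [memC] at h ⊢
    have : y * (y * k) * y⁻¹ = y * (k * y) * y⁻¹ := by
      calc y * (y * k) * y⁻¹ = y * (y * k * y⁻¹) := by group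
        _ = y * k * y⁻¹ * y := h
        _ = y * (k * y) * y⁻¹ := by group
    simpa using this)
  set z₀ := k⁻¹ * (y * k * y⁻¹) with hz₀
  have z0R : z₀ ∈ R := R.mul_mem (R.inv_mem hk) (hn k hk)
  have z0C : z₀ ∈ C := (mul _ (R.inv_mem hk) _ (hn k hk)).2
    ⟨fun h => absurd (C.inv_mem_iff.1 h) hkC, fun h => absurd h hk'⟩
  have e0 : y * k = k * z₀ * y := by rw [hz₀]; group
  have z0ne : z₀ ≠ 1 := fun h => hkC ((memC k).2 (by rw [e0, h, mul_one]))
  have yz : Commute y z₀ := (memC _).1 z0C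
  have ej : ∀ j : ℕ, y ^ j * k = k * z₀ ^ j * y ^ j := fun j => by
    induction j with
    | zero => simp
    | succ j ih =>
      calc y ^ (j + 1) * k = y ^ j * (y * k) := by rw [pow_succ, mul_assoc]
        _ = y ^ j * k * z₀ * y := by rw [e0]; group
        _ = k * z₀ ^ j * (y ^ j * z₀) * y := by rw [ih]; group
        _ = k * z₀ ^ j * (z₀ * y ^ j) * y := by rw [(yz.pow_left j).eq]
        _ = k * z₀ ^ (j + 1) * y ^ (j + 1) := by rw [pow_succ, pow_succ]; group
  have zp : z₀ ^ p = 1 := by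
    have := ej p
    rw [hy, one_mul, mul_one] at this
    exact (mul_eq_left.1 this.symm)
  have cen : ∀ c ∈ R, c ∈ C → Commute z₀ c := fun c hc hcC => by
    have h1 : k * c ∉ C := fun h => hkC (((mul _ hk _ hc).1 h).2 hcC)
    have h2 : k * c * k⁻¹ ∈ C := (mul _ (R.mul_mem hk hc) _ (R.inv_mem hk)).2
      ⟨fun h => absurd h h1, fun h => absurd (C.inv_mem_iff.1 h) hkC⟩
    rw [memC] at h2 hcC
    have h3 : y * k * c = k * c * k⁻¹ * (y * k) := by
      calc y * k * c = y * (k * c * k⁻¹) * k := by group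
        _ = k * c * k⁻¹ * y * k := by rw [h2]
        _ = _ := by group
    rw [e0] at h3
    have h4 : k * (z₀ * c) * y = k * (c * z₀) * y := by
      calc k * (z₀ * c) * y = k * z₀ * (c * y) := by group
        _ = k * z₀ * y * c := by rw [← hcC]; group
        _ = k * c * k⁻¹ * (k * z₀ * y) := h3
        _ = _ := by group
    exact mul_left_cancel (mul_right_cancel h4)
  have kk : k * k ∈ C := (mul _ hk _ hk).2 Iff.rfl
  have inv : z₀ * k = k * z₀⁻¹ := by
    rw [memC] at kk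
    have h1 : k * (z₀ * k * z₀) * y = k * k * y := by
      calc k * (z₀ * k * z₀) * y = k * z₀ * (k * z₀ * y) := by group
        _ = k * z₀ * (y * k) := by rw [← e0]
        _ = k * z₀ * y * k := by group
        _ = y * k * k := by rw [← e0]
        _ = y * (k * k) := by group
        _ = _ := kk
    have h2 : z₀ * k * z₀ = k := mul_left_cancel (mul_right_cancel h1)
    calc z₀ * k = z₀ * k * z₀ * z₀⁻¹ := by group
      _ = _ := by rw [h2]
  have invj : ∀ j : ℕ, z₀ ^ j * k = k * (z₀ ^ j)⁻¹ := fun j => by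
    induction j with
    | zero => simp
    | succ j ih =>
      calc z₀ ^ (j + 1) * k = z₀ ^ j * (z₀ * k) := by rw [pow_succ, mul_assoc]
        _ = z₀ ^ j * k * z₀⁻¹ := by rw [inv]; group
        _ = _ := by rw [ih, pow_succ']; group
  refine ⟨?_, ?_⟩
  · have h1 := (C.subgroupOf R).card_mul_index
    have h2 : 1 < Nat.card (C.subgroupOf R) := by
      rw [Subgroup.one_lt_card_iff_ne_bot]
      intro h
      have : (⟨z₀, z0R⟩ : R) ∈ C.subgroupOf R := z0C
      rw [h, Subgroup.mem_bot] at this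
      exact z0ne (congrArg Subtype.val this)
    rw [hi'] at h1
    omega
  · obtain ⟨m, hm⟩ := hp
    have sq : z₀ ^ (m + 1) * z₀ ^ (m + 1) = z₀ := by
      rw [← pow_add, show m + 1 + (m + 1) = p + 1 by omega, pow_succ, zp, one_mul]
    have ck : Commute (y * z₀ ^ (m + 1)) k := by
      show y * z₀ ^ (m + 1) * k = k * (y * z₀ ^ (m + 1))
      calc y * z₀ ^ (m + 1) * k = y * k * (z₀ ^ (m + 1))⁻¹ := by
            rw [mul_assoc, invj, mul_assoc]
        _ = k * (z₀ * y) * (z₀ ^ (m + 1))⁻¹ := by rw [e0]; group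
        _ = k * y * (z₀ ^ (m + 1) * z₀ ^ (m + 1)) * (z₀ ^ (m + 1))⁻¹ := by
            rw [sq, ← yz.eq]; group
        _ = _ := by group
    have cc : ∀ c ∈ R, c ∈ C → Commute (y * z₀ ^ (m + 1)) c := fun c hc hcC =>
      Commute.mul_left ((memC c).1 hcC) ((cen c hc hcC).pow_left _)
    refine ⟨z₀ ^ (m + 1), R.pow_mem z0R _, fun a ha => ?_⟩
    by_cases haC : a ∈ C
    · exact cc a ha haC
    · have h1 : k⁻¹ * a ∈ C := (mul _ (R.inv_mem hk) _ ha).2
        ⟨fun h => absurd (C.inv_mem_iff.1 h) hkC, fun h => absurd h haC⟩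
      have := ck.mul_right (cc _ (R.mul_mem (R.inv_mem hk) ha) h1)
      rw [mul_inv_cancel_left] at this
      exact this

theorem jobElt : Con → Elt := by
  intro con α _ _ G K R c hd
  have hG := c.le
  -- an element of odd prime order
  obtain ⟨p, hp, hp2, hpd⟩ : ∃ p, p.Prime ∧ p ≠ 2 ∧ p ∣ Nat.card K := by
    by_contra h
    push Not at h
    have h2 : IsPGroup 2 K := by
      have : Fact (Nat.Prime 2) := ⟨Nat.prime_two⟩
      rw [IsPGroup.iff_card]
      refine ⟨_, (Nat.eq_prime_pow_of_unique_prime_dvd Nat.card_pos.ne' fun {d} hd hdv => ?_)⟩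
      by_contra hne
      exact h d hd hne hdv
    obtain ⟨B, hB, hne, hs⟩ := con α G K c.toCx 2 K Nat.prime_two h2 le_rfl
    obtain ⟨g, hg, rfl⟩ := mem_bl.1 hB
    exact hne (c.pro.fixb hg hs)
  have : Fact p.Prime := ⟨hp⟩
  obtain ⟨⟨x, hx⟩, hxo⟩ := exists_prime_orderOf_dvd_card' p hpd
  have hxo' : orderOf x = p := by rw [← hxo]; exact (Subgroup.orderOf_mk x hx).symm
  have hx1 : x ≠ 1 := fun h => by
    rw [h, orderOf_one] at hxo'
    exact hp.one_lt.ne hxo'
  have hP : IsPGroup p (Subgroup.zpowers x) :=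
    IsPGroup.of_card (n := 1) (by rw [Nat.card_zpowers, hxo', pow_one])
  obtain ⟨B, hB, hne, hs⟩ := con α G K c.toCx p _ hp hP (by simpa using hx)
  obtain ⟨g, hg, rfl⟩ := mem_bl.1 hB
  have hs1 := hs x (Subgroup.mem_zpowers x)
  have yG : g⁻¹ * x * g ∈ G := G.mul_mem (G.mul_mem (G.inv_mem hg) (hG hx)) hg
  have y1 : g⁻¹ * x * g ≠ 1 := fun h => hx1 (by
    have : x = g * (g⁻¹ * x * g) * g⁻¹ := by group
    rw [this, h]; group)
  have yN : g⁻¹ * x * g ∈ sw G (fp K) := by
    refine mem_sw.2 ⟨yG, ?_⟩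
    rw [mul_smul, mul_smul, hs1, inv_smul_smul]
  have hB' : g⁻¹ • fp K ∈ bl G K := mem_bl.2 ⟨_, G.inv_mem hg, rfl⟩
  have hF : fp K ∈ bl G K := mem_bl.2 ⟨1, G.one_mem, one_smul _ _⟩
  have ne' : g⁻¹ • fp K ≠ fp K := fun h => hne (by
    conv_lhs => rw [← h]
    rw [smul_inv_smul])
  have fixB : ∀ a ∈ g⁻¹ • fp K, (g⁻¹ * x * g) a = a := fun a ha => by
    have h1 : g a ∈ fp K := by simpa using mem_sm.1 ha
    simp [mem_fp.1 h1 x hx]
  have yK : g⁻¹ * x * g ∉ K := fun h => by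
    rcases c.ti _ yG _ hB' _ hF fixB (fun a ha => mem_fp.1 ha _ h) with e | e
    · exact y1 e
    · exact ne' e
  obtain ⟨h6, h3⟩ := hd _ yN yK
  have le : (fp K ∩ (g⁻¹ * x * g).support).card ≤ ((fp K)ᶜ \ (g⁻¹ * x * g).support).card := by
    calc _ ≤ (fp K \ g⁻¹ • fp K).card := Finset.card_le_card fun a ha => by
          rw [Finset.mem_inter, Perm.mem_support] at ha
          exact Finset.mem_sdiff.2 ⟨ha.1, fun h => ha.2 (fixB a h)⟩
      _ = (g⁻¹ • fp K \ fp K).card :=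
          Finset.card_sdiff_comm (Finset.card_smul_finset _ _).symm
      _ ≤ _ := Finset.card_le_card fun a ha => by
          rw [Finset.mem_sdiff] at ha ⊢
          exact ⟨Finset.mem_compl.2 ha.2, fun h => Perm.mem_support.1 h (fixB a ha.1)⟩
  refine ⟨_, yN, p, hp.odd_of_ne_two hp2, ?_, yK, ?_, by omega, by omega⟩
  · have : (g⁻¹ * x * g) ^ p = g⁻¹ * x ^ p * g := by
      have := conj_pow (i := p) (a := g⁻¹) (b := x)
      simpa using this
    rw [this, ← hxo', pow_orderOf_eq_one]; group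
  · by_contra h
    push Not at h
    refine ne' (c.pro.fixb (G.inv_mem hg) fun k hk => ?_)
    have hB2 : k • g⁻¹ • fp K ∈ bl G K :=
      mem_bl.2 ⟨k * g⁻¹, G.mul_mem (hG hk) (G.inv_mem hg), mul_smul _ _ _⟩
    have fx2 : ∀ a ∈ k • g⁻¹ • fp K, (g⁻¹ * x * g) a = a := fun a ha => by
      have h1 := fixB _ (mem_sm.1 ha)
      have h2 := congrArg (fun f : Perm α => f (k⁻¹ a)) (h k hk)
      simp only [Perm.mul_apply] at h1 h2 ⊢
      rw [h1] at h2
      simpa using h2
    exact (c.ti _ yG _ hB2 _ hB' fx2 fixB).resolve_left y1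

end H69.PN
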